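import Mathlib

/-!
# S5175, T4/T5 linear part, A (for helper756): additive maps of `K²` normalizing `SL₂(K)` and its upper unitriangular
subgroup, `K` finite of characteristic two

* `uu c` : the matrix `(1 c; 0 1)`;
* `Nrm τ` : `τ` is an injective additive map normalizing `SL₂(K)` and `U`;
* `Nrm.line` : `τ` maps lines to lines;
* `Nrm.of_quad` : `τ` trivial on the line `C(U)` and modulo it: `τ ∈ U`;
* `Nrm.of_comm` : `τ` of 2-power order commuting with `U`: `τ ∈ U`.
-/

set_option autoImplicit false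
set_option linter.unusedSectionVars false

namespace Cfsg.Agent.H880.HM

open Matrix

section Mat

variable {K : Type*} [Field K]

/-- the matrix `(1 c; 0 1)` -/
def uu (c : K) : SpecialLinearGroup (Fin 2) K := ⟨!![1, c; 0, 1], by simp [Matrix.det_fin_two_of]⟩

/-- the action of `SL₂(K)` on `K²` -/
def sm (m : SpecialLinearGroup (Fin 2) K) (v : Fin 2 → K) : Fin 2 → K := (m : Matrix (Fin 2) (Fin 2) K) *ᵥ v

theorem sm_add (m : SpecialLinearGroup (Fin 2) K) (v w : Fin 2 → K) : sm m (v + w) = sm m v + sm m w :=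
  Matrix.mulVec_add _ _ _

theorem sm_zero (m : SpecialLinearGroup (Fin 2) K) : sm m 0 = 0 := Matrix.mulVec_zero _

theorem sm_smul (m : SpecialLinearGroup (Fin 2) K) (k : K) (v : Fin 2 → K) : sm m (k • v) = k • sm m v :=
  Matrix.mulVec_smul _ _ _

theorem sm_one (v : Fin 2 → K) : sm 1 v = v := by simp [sm]

theorem sm_mul (m n : SpecialLinearGroup (Fin 2) K) (v : Fin 2 → K) : sm (m * n) v = sm m (sm n v) := by
  unfold sm
  rw [Matrix.SpecialLinearGroup.coe_mul, Matrix.mulVec_mulVec]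

theorem sm_inv_sm (m : SpecialLinearGroup (Fin 2) K) (v : Fin 2 → K) : sm m⁻¹ (sm m v) = v := by
  rw [← sm_mul, inv_mul_cancel, sm_one]

theorem sm_sm_inv (m : SpecialLinearGroup (Fin 2) K) (v : Fin 2 → K) : sm m (sm m⁻¹ v) = v := by
  rw [← sm_mul, mul_inv_cancel, sm_one]

theorem sm_inj (m : SpecialLinearGroup (Fin 2) K) {v w : Fin 2 → K} (h : sm m v = sm m w) : v = w := by
  rw [← sm_inv_sm m v, h, sm_inv_sm]

theorem ext_sm {m n : SpecialLinearGroup (Fin 2) K} (h : ∀ v, sm m v = sm n v) : m = n := by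
  apply Subtype.ext
  apply Matrix.ext_of_mulVec_single
  intro i
  exact h _

theorem sm_uu_zero (c : K) (v : Fin 2 → K) : sm (uu c) v 0 = v 0 + c * v 1 := by
  simp [sm, uu, Matrix.mulVec, dotProduct, Fin.sum_univ_two]

theorem sm_uu_one (c : K) (v : Fin 2 → K) : sm (uu c) v 1 = v 1 := by
  simp [sm, uu, Matrix.mulVec, dotProduct, Fin.sum_univ_two]

theorem sm_uu (c : K) (v : Fin 2 → K) : sm (uu c) v = v + ![c * v 1, 0] := by
  funext i
  fin_cases i
  · simp [sm_uu_zero]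
  · simp [sm_uu_one]

theorem uu_zero : (uu 0 : SpecialLinearGroup (Fin 2) K) = 1 := by
  apply ext_sm
  intro v
  rw [sm_uu, sm_one]
  funext i
  fin_cases i <;> simp

theorem uu_add (c d : K) : uu (c + d) = uu c * uu d := by
  apply ext_sm
  intro v
  rw [sm_mul]
  funext i
  fin_cases i
  · simp [sm_uu_zero, sm_uu_one]; ring
  · simp [sm_uu_one]

theorem uu_inj {c d : K} (h : uu c = uu d) : c = d := by
  have h1 := congrArg (fun m => sm m ![0, 1] 0) h
  simpa [sm_uu_zero] using h1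

theorem uu_inv (c : K) : (uu c)⁻¹ = uu (-c) := by
  rw [inv_eq_iff_mul_eq_one, ← uu_add, add_neg_cancel, uu_zero]

theorem uu_eq_one {c : K} (h : uu c = 1) : c = 0 := uu_inj (h.trans uu_zero.symm)

/-- the fixed points of `uu c`, `c ≠ 0` -/
theorem fix_uu {c : K} (hc : c ≠ 0) {v : Fin 2 → K} : sm (uu c) v = v ↔ v 1 = 0 := by
  constructor
  · intro h
    have h1 := congrFun h 0
    rw [sm_uu_zero] at h1
    have h2 : c * v 1 = 0 := by linear_combination h1
    exact (mul_eq_zero.1 h2).resolve_left hc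
  · intro h
    rw [sm_uu, h, mul_zero]
    funext i
    fin_cases i <;> simp

theorem smul_e {v : Fin 2 → K} (h : v 1 = 0) : v = v 0 • ![1, 0] := by
  funext i
  fin_cases i <;> simp [h]

/-- `SL₂(K)` is transitive on nonzero vectors -/
theorem exists_sm_e {v : Fin 2 → K} (hv : v ≠ 0) : ∃ m : SpecialLinearGroup (Fin 2) K, sm m ![1, 0] = v := by
  by_cases h : v 0 = 0
  · have h1 : v 1 ≠ 0 := by
      intro h1
      apply hv
      funext i
      fin_cases i
      · exact h
      · exact h1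
    refine ⟨⟨!![v 0, -(v 1)⁻¹; v 1, 0], ?_⟩, ?_⟩
    · rw [Matrix.det_fin_two_of]
      field_simp
      ring
    · funext i
      fin_cases i <;> simp [sm, Matrix.mulVec, dotProduct, Fin.sum_univ_two]
  · refine ⟨⟨!![v 0, 0; v 1, (v 0)⁻¹], ?_⟩, ?_⟩
    · rw [Matrix.det_fin_two_of]
      field_simp
      ring
    · funext i
      fin_cases i <;> simp [sm, Matrix.mulVec, dotProduct, Fin.sum_univ_two]

/-- an element of `SL₂(K)` fixing `e₁` is unitriangular -/
theorem eq_uu_of_fix {m : SpecialLinearGroup (Fin 2) K} (h : sm m ![1, 0] = ![1, 0]) : ∃ c, m = uu c := by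
  have h0 : (m : Matrix (Fin 2) (Fin 2) K) 0 0 = 1 := by
    have h1 := congrFun h 0
    simpa [sm, Matrix.mulVec, dotProduct, Fin.sum_univ_two] using h1
  have h1 : (m : Matrix (Fin 2) (Fin 2) K) 1 0 = 0 := by
    have h1 := congrFun h 1
    simpa [sm, Matrix.mulVec, dotProduct, Fin.sum_univ_two] using h1
  have h2 : (m : Matrix (Fin 2) (Fin 2) K) 1 1 = 1 := by
    have h3 := m.2
    rw [Matrix.det_fin_two, h0, h1] at h3
    linear_combination h3
  refine ⟨(m : Matrix (Fin 2) (Fin 2) K) 0 1, ?_⟩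
  apply Subtype.ext
  ext i j
  fin_cases i <;> fin_cases j <;> simp [uu, h0, h1, h2]

/-- `τ` is an injective additive map normalizing `SL₂(K)` and `U` -/
structure Nrm (τ : (Fin 2 → K) → (Fin 2 → K)) : Prop where
  add : ∀ v w, τ (v + w) = τ v + τ w
  inj : ∀ v, τ v = 0 → v = 0
  nor : ∀ m : SpecialLinearGroup (Fin 2) K, ∃ m' : SpecialLinearGroup (Fin 2) K, ∀ v, τ (sm m v) = sm m' (τ v)
  norU : ∀ c : K, ∃ c' : K, ∀ v, τ (sm (uu c) v) = sm (uu c') (τ v)

namespace Nrm

variable {τ : (Fin 2 → K) → (Fin 2 → K)} (h : Nrm τ)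

include h

theorem zero : τ 0 = 0 := by
  have h1 := h.add 0 0
  rw [add_zero] at h1
  exact (left_eq_add.1 h1)

theorem sub (v w : Fin 2 → K) : τ (v - w) = τ v - τ w := by
  have h1 := h.add (v - w) w
  rw [sub_add_cancel] at h1
  exact (sub_eq_of_eq_add h1).symm

theorem inj' {v w : Fin 2 → K} (hvw : τ v = τ w) : v = w := by
  rw [← sub_eq_zero]
  apply h.inj
  rw [h.sub, hvw, sub_self]

theorem uu_ne {c c' : K} (hc : c ≠ 0) (hcc : ∀ v, τ (sm (uu c) v) = sm (uu c') (τ v)) : c' ≠ 0 := by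
  rintro rfl
  have h1 := hcc ![0, 1]
  rw [uu_zero, sm_one] at h1
  have h2 := (fix_uu hc).1 (h.inj' h1)
  simp at h2

/-- `τ` preserves the line `C(U)` -/
theorem line_e {v : Fin 2 → K} (hv : v 1 = 0) : τ v 1 = 0 := by
  obtain ⟨c', hc'⟩ := h.norU 1
  have h1 := hc' v
  rw [(fix_uu one_ne_zero).2 hv] at h1
  exact (fix_uu (h.uu_ne one_ne_zero hc')).1 h1.symm

/-- `τ` maps lines to lines -/
theorem line (k : K) (v : Fin 2 → K) : ∃ k' : K, τ (k • v) = k' • τ v := by
  by_cases hv : v = 0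
  · exact ⟨0, by rw [hv, smul_zero, h.zero, smul_zero]⟩
  obtain ⟨m, hm⟩ := exists_sm_e hv
  obtain ⟨m', hm'⟩ := h.nor m
  have h1 : τ (![1, 0] : Fin 2 → K) 1 = 0 := h.line_e (by simp)
  have h2 : τ (k • ![1, 0] : Fin 2 → K) 1 = 0 := h.line_e (by simp)
  have h3 : τ (![1, 0] : Fin 2 → K) 0 ≠ 0 := by
    intro h3
    have h4 : τ (![1, 0] : Fin 2 → K) = 0 := by
      rw [smul_e h1, h3, zero_smul]
    have h5 := congrFun (h.inj _ h4) 0
    simp at h5
  obtain ⟨κ, h4⟩ : ∃ κ : K, τ (k • ![1, 0]) = κ • τ ![1, 0] := by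
    refine ⟨τ (k • ![1, 0]) 0 * (τ ![1, 0] 0)⁻¹, ?_⟩
    conv_lhs => rw [smul_e h2]
    conv_rhs => rw [smul_e h1]
    rw [smul_smul]
    congr 1
    simp only [Pi.smul_apply, Matrix.cons_val_zero, smul_eq_mul, mul_one]
    field_simp
  refine ⟨κ, ?_⟩
  rw [← hm, ← sm_smul, hm', hm', h4, sm_smul]

/-- `τ` trivial on the line `C(U)` and modulo it -/
theorem of_quad (h0 : ∀ v, v 1 = 0 → τ v = v) (h1 : ∀ v, τ v 1 = v 1) : ∃ c, ∀ v, τ v = sm (uu c) v := by
  have hb : τ ![0, 1] 1 = 1 := by rw [h1]; simp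
  refine ⟨τ ![0, 1] 0, fun v => ?_⟩
  have hv : v = v 0 • ![1, 0] + v 1 • ![0, 1] := by
    funext i
    fin_cases i <;> simp
  obtain ⟨k', hk'⟩ := h.line (v 1) ![0, 1]
  have h2 : k' = v 1 := by
    have h3 := congrFun hk' 1
    rw [h1, Pi.smul_apply, Pi.smul_apply, hb, smul_eq_mul, smul_eq_mul, mul_one] at h3
    rw [← h3]
    simp
  conv_lhs => rw [hv]
  rw [h.add, h0 _ (by simp), hk', h2, sm_uu]
  funext i
  fin_cases i
  · simp [mul_comm]
  · simp [hb]

theorem comp {σ : (Fin 2 → K) → (Fin 2 → K)} (h' : Nrm σ) : Nrm (τ ∘ σ) where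
  add v w := by simp only [Function.comp_apply, h'.add, h.add]
  inj v hv := h'.inj _ (h.inj _ hv)
  nor m := by
    obtain ⟨m', hm'⟩ := h'.nor m
    obtain ⟨m'', hm''⟩ := h.nor m'
    exact ⟨m'', fun v => by simp only [Function.comp_apply, hm', hm'']⟩
  norU c := by
    obtain ⟨m', hm'⟩ := h'.norU c
    obtain ⟨m'', hm''⟩ := h.norU m'
    exact ⟨m'', fun v => by simp only [Function.comp_apply, hm', hm'']⟩

end Nrm

theorem nrm_uu (c : K) : Nrm (sm (uu c)) where
  add := sm_add _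
  inj v hv := sm_inj (uu c) (hv.trans (sm_zero _).symm)
  nor m := ⟨uu c * m * (uu c)⁻¹, fun v => by rw [← sm_mul, ← sm_mul, inv_mul_cancel_right]⟩
  norU d := ⟨d, fun v => by rw [← sm_mul, ← sm_mul, ← uu_add, ← uu_add, add_comm]⟩

theorem Nrm.of_comm [Finite K] [CharP K 2] {τ : (Fin 2 → K) → (Fin 2 → K)} (h : Nrm τ)
    (hc : ∀ c v, τ (sm (uu c) v) = sm (uu c) (τ v)) {k : ℕ} (hk : τ^[2 ^ k] = id) : ∃ c, ∀ v, τ v = sm (uu c) v := by
  classical
  have : Fintype K := Fintype.ofFinite K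
  have h2 : ∀ x : K, x + x = 0 := fun x => CharTwo.add_self_eq_zero x
  -- `τ e₂ = (b, d)`, `d ≠ 0`
  set b := τ ![0, 1] 0 with hb
  set d := τ ![0, 1] 1 with hd
  have hd0 : d ≠ 0 := by
    intro h0
    have h3 := hc 1 ![0, 1]
    rw [(fix_uu one_ne_zero).2 h0] at h3
    have h4 := (fix_uu (one_ne_zero (α := K))).1 (h.inj' h3)
    simp at h4
  set c := b * d⁻¹ with hcdef
  -- `τ' = u_c τ` fixes the line of `e₂`
  set σ : (Fin 2 → K) → (Fin 2 → K) := fun v => sm (uu c) (τ v) with hσ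
  have hσn : Nrm σ := (nrm_uu c).comp h
  have hσc : ∀ x v, σ (sm (uu x) v) = sm (uu x) (σ v) := by
    intro x v
    rw [hσ]
    simp only [hc]
    rw [← sm_mul, ← sm_mul, ← uu_add, ← uu_add, add_comm]
  have hσe : σ ![0, 1] 0 = 0 := by
    rw [hσ]
    simp only
    rw [sm_uu_zero, ← hb, ← hd, hcdef, mul_assoc, inv_mul_cancel₀ hd0, mul_one]
    exact h2 b
  have hσl : ∀ y : K, σ ![0, y] 0 = 0 := by
    intro y
    have h3 : (![0, y] : Fin 2 → K) = y • ![0, 1] := by
      funext i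
      fin_cases i <;> simp
    obtain ⟨k', hk'⟩ := hσn.line y ![0, 1]
    rw [h3, hk', Pi.smul_apply, hσe, smul_zero]
  have hσσ : ∀ j : ℕ, ∀ v, σ^[j] v = sm (uu c ^ j) (τ^[j] v) := by
    intro j
    induction j with
    | zero => intro v; simp [sm_one]
    | succ j ih =>
      intro v
      rw [Function.iterate_succ_apply', ih, Function.iterate_succ_apply', pow_succ', sm_mul, hσ]
      simp only
      congr 1
      -- `τ` commutes with powers of `uu c`
      have h3 : ∀ j : ℕ, ∀ v, τ (sm (uu c ^ j) v) = sm (uu c ^ j) (τ v) := by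
        intro j
        induction j with
        | zero => intro v; rw [pow_zero, sm_one, sm_one]
        | succ j ih => intro v; rw [pow_succ', sm_mul, hc, ih, sm_mul]
      rw [h3]
  have huu2 : uu c ^ 2 = 1 := by rw [sq, ← uu_add, h2, uu_zero]
  have hσ2 : ∀ v, σ^[2 ^ (k + 1)] v = v := by
    intro v
    rw [hσσ]
    have h3 : uu c ^ 2 ^ (k + 1) = 1 := by rw [pow_succ', pow_mul, huu2, one_pow]
    rw [h3, sm_one, pow_succ', mul_comm, Function.iterate_mul, hk]
    simp
  -- the permutation of the line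
  let f : K → K := fun y => σ ![0, y] 1
  have hf : ∀ y, σ ![0, y] = ![0, f y] := by
    intro y
    funext i
    fin_cases i
    · exact hσl y
    · rfl
  have hfinj : Function.Injective f := by
    intro x y hxy
    have h3 : σ ![0, x] = σ ![0, y] := by rw [hf, hf, hxy]
    have h4 := congrFun (hσn.inj' h3) 1
    simpa using h4
  let π : Equiv.Perm K := Equiv.ofBijective f (Finite.injective_iff_bijective.1 hfinj)
  have hπ : ∀ j : ℕ, ∀ y, ![0, (π ^ j) y] = σ^[j] ![0, y] := by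
    intro j
    induction j with
    | zero => intro y; rfl
    | succ j ih =>
      intro y
      rw [Function.iterate_succ_apply', ← ih, pow_succ', Equiv.Perm.mul_apply]
      exact (hf _).symm
  have hπ2 : π ^ 2 ^ (k + 1) = 1 := by
    ext1 y
    have h3 := hπ (2 ^ (k + 1)) y
    rw [hσ2] at h3
    have h4 := congrFun h3 1
    simpa using h4
  have : Fact (Nat.Prime 2) := ⟨Nat.prime_two⟩
  have hcard : 2 ∣ Fintype.card K := by
    obtain ⟨n, _, hn⟩ := FiniteField.card K 2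
    rw [hn]
    exact dvd_pow_self 2 n.ne_zero
  have hπ0 : π 0 = 0 := by
    show σ ![0, 0] 1 = 0
    have h3 : (![0, 0] : Fin 2 → K) = 0 := by funext i; fin_cases i <;> rfl
    rw [h3, hσn.zero]
    rfl
  obtain ⟨y0, hy0, hy0'⟩ := Equiv.Perm.exists_fixed_point_of_prime' (p := 2) (n := k + 1) hcard hπ2 hπ0
  have hfix : σ ![0, y0] = ![0, y0] := by
    rw [hf]
    have h3 : f y0 = y0 := hy0
    rw [h3]
  -- `σ` is trivial on `C(U)`
  have hl : ∀ x : K, σ ![x, 0] = ![x, 0] := by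
    intro x
    have h3 : (![x, 0] : Fin 2 → K) = sm (uu (x * y0⁻¹)) ![0, y0] - ![0, y0] := by
      rw [sm_uu]
      funext i
      fin_cases i
      · simp [hy0']
      · simp
    rw [h3, hσn.sub, hσc, hfix]
  have hm : ∀ y : K, σ ![0, y] = ![0, y] := by
    intro y
    have h3 : (![y, 0] : Fin 2 → K) = sm (uu 1) ![0, y] - ![0, y] := by
      rw [sm_uu]
      funext i
      fin_cases i <;> simp
    have h4 := hl y
    rw [h3, hσn.sub, hσc, hf, sm_uu, sm_uu, add_sub_cancel_left, add_sub_cancel_left] at h4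
    have h5 := congrFun h4 0
    simp at h5
    rw [hf, h5]
  have hσid : ∀ v, σ v = v := by
    intro v
    have hv : v = ![v 0, 0] + ![0, v 1] := by
      funext i
      fin_cases i <;> simp
    conv_lhs => rw [hv]
    rw [hσn.add, hl, hm, ← hv]
  refine ⟨c, fun v => ?_⟩
  have h3 := hσid v
  rw [hσ] at h3
  simp only at h3
  conv_rhs => rw [← h3]
  rw [← sm_mul, ← sq, huu2, sm_one]

end Mat

end Cfsg.Agent.H880.HM
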